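import Cfsg.Agent.Lib.UThreeDeg.Values
import Cfsg.Agent.Lib.CharTools.Basic
import Cfsg.Prelude.Def_DegreeGraph

/-!
# Character degrees divisible by 6, 14 and 21 in a perfect group of order 6048
-/

set_option autoImplicit false

open scoped ComplexConjugate

namespace Cfsg.Agent.Lib.UThreeDeg

open Cfsg.Agent.Lib.Char

universe u

def listOne : Finset ℕ := (Finset.range 78).filter fun d => d ∣ 6048 ∧ d ≠ 1 ∧ (d % 7 = 1 ∨ d % 7 = 6)
def listPair : Finset ℕ := (Finset.range 78).filter fun d => d ∣ 6048 ∧ (d % 7 = 3 ∨ d % 7 = 4)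
def sgnOf (d : ℕ) : ℤ := if d % 7 = 1 then 1 else -1

theorem six_dvd_cases : ∀ a ∈ listOne, ∀ b ∈ listOne, ∀ e ∈ listPair,
    (1 + sgnOf a * a + sgnOf b * b + (e : ℤ) = 0 ∨ 1 + sgnOf a * a + sgnOf b * b - (e : ℤ) = 0) →
    6 ∣ a ∨ 6 ∣ b ∨ 6 ∣ e := by
  decide +kernel

variable {G : Type u} [Group G] [Finite G]

theorem degree_bound (hcard : Nat.card G = 6048) (χ : IrrCharacter G) :
    charDegree (χ : G → ℂ) < 78 ∧ charDegree (χ : G → ℂ) ∣ 6048 := by
  have h1 : charDegree (χ : G → ℂ) ^ 2 ≤ ∑ ψ : IrrCharacter G, charDegree (ψ : G → ℂ) ^ 2 :=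
    Finset.single_le_sum (f := fun ψ : IrrCharacter G => charDegree (ψ : G → ℂ) ^ 2)
      (fun _ _ => Nat.zero_le _) (Finset.mem_univ χ)
  rw [sum_charDegree_sq, hcard] at h1
  refine ⟨by nlinarith, ?_⟩
  rw [← hcard]
  have := Fintype.ofFinite G
  exact irr_degree_dvd_card χ.2 (apply_one_eq_charDegree (isCharacter_of_isIrr χ.2))

theorem eq_one_of_degree_one (hperf : commutator G = ⊤) (χ : IrrCharacter G)
    (h : charDegree (χ : G → ℂ) = 1) : (χ : G → ℂ) = fun _ => 1 := by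
  obtain ⟨l, hl⟩ := CharTools.irr_mem_linear χ.2 ((charDegree_eq_one_iff χ.2).mp h)
  funext x
  rw [hl, CharTools.linear_commutator (by rw [hperf]; exact Subgroup.mem_top x), Units.val_one]

/-- complex conjugation on irreducible characters -/
noncomputable def conjIrr (χ : IrrCharacter G) : IrrCharacter G :=
  ⟨fun x => conj ((χ : G → ℂ) x), by
    have := Fintype.ofFinite G
    refine isIrrCharacter_of_norm_one (isCharacter_conj (isCharacter_of_isIrr χ.2)) ?_
    rw [← classInner_irr_self χ.2]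
    simp only [classInner]
    congr 1
    exact Finset.sum_congr rfl fun x _ => by rw [Complex.conj_conj]; ring⟩

theorem conjIrr_apply (χ : IrrCharacter G) (x : G) :
    (conjIrr χ : G → ℂ) x = conj ((χ : G → ℂ) x) := rfl

theorem charDegree_conjIrr (χ : IrrCharacter G) :
    charDegree (conjIrr χ : G → ℂ) = charDegree (χ : G → ℂ) := by
  apply charDegree_eq_of_apply_one
  rw [conjIrr_apply, apply_one_eq_charDegree (isCharacter_of_isIrr χ.2), Complex.conj_natCast]

theorem card_le_of_normSq (g : G) (S : Finset (IrrCharacter G)) (f : IrrCharacter G → ℝ) (c : ℝ)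
    (hc : ∀ χ ∈ S, c ≤ f χ) (hnn : ∀ χ, 0 ≤ f χ) (T : ℝ) (hT : ∑ χ : IrrCharacter G, f χ = T) :
    (S.card : ℝ) * c ≤ T := by
  rw [← hT]
  calc (S.card : ℝ) * c = ∑ χ ∈ S, c := by simp
    _ ≤ ∑ χ ∈ S, f χ := Finset.sum_le_sum hc
    _ ≤ _ := Finset.sum_le_sum_of_subset_of_nonneg (Finset.subset_univ S) fun χ _ _ => hnn χ

theorem sum_normSq_real (g : G) :
    ∑ χ : IrrCharacter G, Complex.normSq ((χ : G → ℂ) g) =
      (Nat.card (Subgroup.centralizer ({g} : Set G)) : ℝ) := by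
  have h := CharTools.sum_irr_normSq g
  exact_mod_cast h

theorem exists_degrees (hcard : Nat.card G = 6048) (hperf : commutator G = ⊤)
    {g n u w : G} (hg : g ^ 7 = 1) (hg1 : g ≠ 1) (hn : n * g * n⁻¹ = g ^ 2)
    (hginv : ¬ IsConj g g⁻¹) (hC7 : Nat.card (Subgroup.centralizer ({g} : Set G)) ≤ 7)
    (hu : u ^ 3 = 1) (hC3 : Nat.card (Subgroup.centralizer ({u} : Set G)) ≤ 9)
    (hw : w ^ 8 = 1) (hC8 : Nat.card (Subgroup.centralizer ({w} : Set G)) ≤ 8)
    (hC8' : Nat.card (Subgroup.centralizer ({w ^ 3} : Set G)) ≤ 8)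
    (hk : 14 ≤ Nat.card (ConjClasses G)) :
    (∃ d ∈ charDegrees G, 6 ∣ d) ∧ (∃ d ∈ charDegrees G, 14 ∣ d) ∧ ∃ d ∈ charDegrees G, 21 ∣ d := by
  classical
  haveI := Fintype.ofFinite G
  let d : IrrCharacter G → ℕ := fun χ => charDegree (χ : G → ℂ)
  have hCard7 : Nat.card (Subgroup.centralizer ({g} : Set G)) = 7 := by
    refine le_antisymm hC7 ?_
    have ho : orderOf g = 7 := by
      haveI : Fact (Nat.Prime 7) := ⟨by decide⟩
      exact orderOf_eq_prime hg hg1
    have hle : Subgroup.zpowers g ≤ Subgroup.centralizer ({g} : Set G) := by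
      rw [Subgroup.zpowers_le, Subgroup.mem_centralizer_singleton_iff]
    have := Subgroup.card_le_of_le hle
    rwa [Nat.card_zpowers, ho] at this
  -- values at the element of order seven
  have hval : ∀ χ : IrrCharacter G, ∃ x y : ℤ, (χ : G → ℂ) g = x + y * eta ∧ (7 : ℤ) ∣ x + 3 * y - (d χ : ℤ) := by
    intro χ
    have hc := isCharacter_of_isIrr χ.2
    have e2 : (χ : G → ℂ) (g ^ 2) = (χ : G → ℂ) g := by rw [← hn]; exact isClassFunction_of_isIrr χ.2 g n
    refine value_seven hc hg e2 ?_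
    have e4 : n * g ^ 2 * n⁻¹ = g ^ 4 := by
      rw [show n * g ^ 2 * n⁻¹ = (n * g * n⁻¹) ^ 2 from (conj_pow).symm, hn, ← pow_mul]
    rw [← e4]
    exact (isClassFunction_of_isIrr χ.2 (g ^ 2) n).trans e2
  choose x y hxy hcong using hval
  let N : IrrCharacter G → ℤ := fun χ => x χ ^ 2 - x χ * y χ + 2 * y χ ^ 2
  have hNn : ∀ χ : IrrCharacter G, (Complex.normSq ((χ : G → ℂ) g) : ℂ) = (N χ : ℂ) := fun χ => by
    rw [← Complex.mul_conj, hxy χ, eta_root.mul_conj]
  have hN0 : ∀ χ, 0 ≤ N χ := fun χ => by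
    simp only [N]; nlinarith [sq_nonneg (2 * x χ - y χ), sq_nonneg (y χ)]
  have hsumN : ∑ χ, N χ = 7 := by
    have h := CharTools.sum_irr_normSq g
    rw [Finset.sum_congr rfl fun χ _ => hNn χ, hCard7] at h
    exact_mod_cast h
  have huniq : ∀ (χ : IrrCharacter G) (a b : ℤ), (χ : G → ℂ) g = a + b * eta → x χ = a ∧ y χ = b := by
    intro χ a b h
    rw [hxy χ] at h
    have := eta_root.uniq (x := x χ - a) (y := y χ - b) (by push_cast; linear_combination h)
    omega
  -- the trivial character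
  let one : IrrCharacter G := ⟨fun _ => 1, isIrrCharacter_one⟩
  have hone : x one = 1 ∧ y one = 0 := huniq one 1 0 (by simp [one])
  have hd1 : d one = 1 := charDegree_eq_of_apply_one (by simp [one])
  have hNone : N one = 1 := by simp only [N, hone.1, hone.2]; norm_num
  -- orthogonality with the identity column
  have hgn1 : ¬ IsConj g (1 : G) := fun h => hg1 (isConj_one_left.mp h)
  have hdx : ∑ χ, (d χ : ℤ) * x χ = 0 ∧ ∑ χ, (d χ : ℤ) * y χ = 0 := by
    refine eta_root.uniq ?_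
    have h := CharTools.sum_irr_mul_conj' g (1 : G)
    rw [if_neg hgn1] at h
    rw [← h]
    push_cast
    rw [Finset.sum_mul, ← Finset.sum_add_distrib]
    refine Finset.sum_congr rfl fun χ _ => ?_
    rw [hxy χ, apply_one_eq_charDegree (isCharacter_of_isIrr χ.2), Complex.conj_natCast]
    ring
  -- a nonreal value
  obtain ⟨P, hP⟩ : ∃ P, y P ≠ 0 := by
    by_contra hall
    push Not at hall
    have h := CharTools.sum_irr_mul_conj' g g⁻¹
    rw [if_neg hginv] at h
    have h2 : ∑ χ : IrrCharacter G, (χ : G → ℂ) g * conj ((χ : G → ℂ) g⁻¹) = ((7 : ℤ) : ℂ) := by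
      rw [← hsumN]
      push_cast
      refine Finset.sum_congr rfl fun χ _ => ?_
      rw [char_inv (isCharacter_of_isIrr χ.2) g, Complex.conj_conj, hxy χ]
      simp only [N, hall χ]
      push_cast
      ring
    rw [h] at h2
    norm_num at h2
  have hconj : ∀ χ, x (conjIrr χ) = x χ - y χ ∧ y (conjIrr χ) = -y χ := fun χ =>
    huniq _ _ _ (by rw [conjIrr_apply, hxy χ, conj_combo eta_root])
  have hNconj : ∀ χ, N (conjIrr χ) = N χ := fun χ => by
    simp only [N, (hconj χ).1, (hconj χ).2]; ring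
  have hne_conj : ∀ χ, y χ ≠ 0 → conjIrr χ ≠ χ := fun χ hy h => by
    have := (hconj χ).2; rw [h] at this; omega
  have hN2 : ∀ χ, y χ ≠ 0 → 2 ≤ N χ := fun χ hy => by
    have : 1 ≤ y χ ^ 2 := by
      rcases lt_or_gt_of_ne hy with h | h <;> nlinarith
    simp only [N]; nlinarith [sq_nonneg (2 * x χ - y χ)]
  set P' := conjIrr P with hP'
  have hy' : y P' ≠ 0 := by rw [hP', (hconj P).2]; omega
  have hPne : P' ≠ P := hne_conj P hP
  have hne1 : ∀ χ, y χ ≠ 0 → χ ≠ one := fun χ hy h => hy (h ▸ hone.2)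
  let S0 : Finset (IrrCharacter G) := {one, P, P'}
  have hsumS0 : ∑ χ ∈ S0, N χ = 1 + 2 * N P := by
    simp only [S0]
    rw [Finset.sum_insert (by simp [(hne1 P hP).symm, (hne1 P' hy').symm]),
      Finset.sum_insert (by simp [hPne.symm]), Finset.sum_singleton, hNone, hP', hNconj]
    ring
  have hsplit := Finset.sum_add_sum_compl S0 N
  rw [hsumN, hsumS0] at hsplit
  have hrest0 : 0 ≤ ∑ χ ∈ S0ᶜ, N χ := Finset.sum_nonneg fun χ _ => hN0 χ
  have hNP2 : N P = 2 := by
    have h2 := hN2 P hP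
    have h3 : N P ≠ 3 := by
      intro h3
      simp only [N] at h3
      have hy1 : y P ^ 2 ≤ 1 := by nlinarith [sq_nonneg (2 * x P - y P)]
      have hy2 : -1 ≤ y P ∧ y P ≤ 1 := ⟨by nlinarith, by nlinarith⟩
      have hx2 : -3 ≤ x P ∧ x P ≤ 3 := ⟨by nlinarith [sq_nonneg (x P + 3)], by nlinarith [sq_nonneg (x P - 3)]⟩
      obtain ⟨a1, a2⟩ := hy2
      obtain ⟨b1, b2⟩ := hx2
      interval_cases (y P) <;> interval_cases (x P) <;> omega
    omega
  rw [hNP2] at hsplit
  have hrest : ∑ χ ∈ S0ᶜ, N χ = 2 := by omega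
  have hy0 : ∀ χ ∈ S0ᶜ, y χ = 0 := by
    intro χ hχ
    by_contra hy
    have hm : conjIrr χ ∈ S0ᶜ := by
      simp only [S0, Finset.mem_compl, Finset.mem_insert, Finset.mem_singleton, not_or] at hχ ⊢
      refine ⟨hne1 _ (by rw [(hconj χ).2]; omega), fun h => hχ.2.2 ?_, fun h => hχ.2.1 ?_⟩
      · rw [hP', ← h]; ext x; simp [conjIrr_apply]
      · rw [hP'] at h
        apply Subtype.ext
        funext z
        have := congrArg (fun ψ : IrrCharacter G => conj ((ψ : G → ℂ) z)) h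
        simpa [conjIrr_apply] using this
    have hle := Finset.sum_le_sum_of_subset_of_nonneg (s := ({χ, conjIrr χ} : Finset _))
      (t := S0ᶜ) (f := N) (by simp [Finset.insert_subset_iff, hχ, hm]) (fun ψ _ _ => hN0 ψ)
    rw [Finset.sum_pair (hne_conj χ hy).symm, hNconj, hrest] at hle
    have := hN2 χ hy
    omega
  let T := S0ᶜ.filter fun χ => N χ ≠ 0
  have hT1 : ∀ χ ∈ T, N χ = 1 := by
    intro χ hχ
    simp only [T, Finset.mem_filter] at hχ
    have hle : N χ ≤ 2 := hrest ▸ Finset.single_le_sum (fun ψ _ => hN0 ψ) hχ.1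
    have hne := hχ.2
    have hnn := hN0 χ
    simp only [N, hy0 χ hχ.1] at hle hne hnn ⊢
    norm_num at hle hne hnn ⊢
    have hx2 : -1 ≤ x χ ∧ x χ ≤ 1 := ⟨by nlinarith, by nlinarith⟩
    obtain ⟨b1, b2⟩ := hx2
    interval_cases (x χ) <;> simp_all
  have hTcard : T.card = 2 := by
    have h1 : ∑ χ ∈ T, N χ = 2 := by
      rw [Finset.sum_filter_ne_zero, hrest]
    rw [Finset.sum_congr rfl hT1] at h1
    simp at h1
    exact_mod_cast h1
  obtain ⟨A, B, hAB, hTeq⟩ := Finset.card_eq_two.mp hTcard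
  have hAT : A ∈ T := by rw [hTeq]; simp
  have hBT : B ∈ T := by rw [hTeq]; simp
  have hA0 := (Finset.mem_filter.mp hAT).1
  have hB0 := (Finset.mem_filter.mp hBT).1
  have hz : ∀ χ, χ ∉ S0 → χ ≠ A → χ ≠ B → x χ = 0 ∧ y χ = 0 := by
    intro χ h1 h2 h3
    have hc : χ ∈ S0ᶜ := Finset.mem_compl.mpr h1
    have hNχ : N χ = 0 := by
      by_contra hne
      have : χ ∈ T := Finset.mem_filter.mpr ⟨hc, hne⟩
      rw [hTeq] at this
      simp [h2, h3] at this
    have hy := hy0 χ hc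
    simp only [N, hy] at hNχ
    exact ⟨by simpa using hNχ, hy⟩
  -- the list member facts
  have hone' : ∀ χ ∈ T, x χ = sgnOf (d χ) ∧ d χ ∈ listOne := by
    intro χ hχ
    have hy := hy0 χ (Finset.mem_filter.mp hχ).1
    have h1 := hT1 χ hχ
    simp only [N, hy] at h1
    norm_num at h1
    have hne : χ ≠ one := fun h => by
      have := (Finset.mem_filter.mp hχ).1
      simp [S0, h] at this
    have hd : d χ ≠ 1 := fun h => hne (Subtype.ext (eq_one_of_degree_one hperf χ h))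
    have hb := degree_bound hcard χ
    have hc := hcong χ
    rw [hy] at hc
    have hx : x χ = 1 ∨ x χ = -1 := by rcases h1 with h1 | h1 <;> omega
    refine ⟨?_, Finset.mem_filter.mpr ⟨Finset.mem_range.mpr hb.1, hb.2, hd, ?_⟩⟩
    · simp only [sgnOf]
      rcases hx with hx | hx <;> rw [hx] at hc ⊢ <;> split_ifs <;> omega
    · rcases hx with hx | hx <;> rw [hx] at hc <;> omega
  have hPval : (2 * x P - y P = 1 ∨ 2 * x P - y P = -1) ∧ d P ∈ listPair := by
    have h := hNP2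
    simp only [N] at h
    have hy1 : y P ^ 2 ≤ 1 := by nlinarith [sq_nonneg (2 * x P - y P)]
    have hy2 : -1 ≤ y P ∧ y P ≤ 1 := ⟨by nlinarith, by nlinarith⟩
    have hx2 : -3 ≤ x P ∧ x P ≤ 3 := ⟨by nlinarith [sq_nonneg (x P + 3)], by nlinarith [sq_nonneg (x P - 3)]⟩
    have hc := hcong P
    have hb := degree_bound hcard P
    have hp := hP
    obtain ⟨a1, a2⟩ := hy2
    obtain ⟨b1, b2⟩ := hx2
    refine ⟨?_, Finset.mem_filter.mpr ⟨Finset.mem_range.mpr hb.1, hb.2, ?_⟩⟩
    · interval_cases (y P) <;> interval_cases (x P) <;> omega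
    · interval_cases (y P) <;> interval_cases (x P) <;> omega
  let S5 : Finset (IrrCharacter G) := {one, P, P', A, B}
  have hmem5 : ∀ χ, χ ∉ S5 → x χ = 0 ∧ y χ = 0 := by
    intro χ h
    simp only [S5, Finset.mem_insert, Finset.mem_singleton, not_or] at h
    exact hz χ (by simp [S0, h.1, h.2.1, h.2.2.1]) h.2.2.2.1 h.2.2.2.2
  have heq : 1 + sgnOf (d A) * d A + sgnOf (d B) * d B + (d P : ℤ) * (2 * x P - y P) = 0 := by
    have h := hdx.1
    rw [← Finset.sum_subset (Finset.subset_univ S5) (fun χ _ hχ => by rw [(hmem5 χ hχ).1, mul_zero])] at h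
    simp only [S0, Finset.mem_compl, Finset.mem_insert, Finset.mem_singleton, not_or] at hA0 hB0
    simp only [S5] at h
    rw [Finset.sum_insert (by simp [(hne1 P hP).symm, (hne1 P' hy').symm, Ne.symm hA0.1, Ne.symm hB0.1]),
      Finset.sum_insert (by simp [hPne.symm, Ne.symm hA0.2.1, Ne.symm hB0.2.1]),
      Finset.sum_insert (by simp [Ne.symm hA0.2.2, Ne.symm hB0.2.2]),
      Finset.sum_pair hAB, (hone' A hAT).1, (hone' B hBT).1, hd1, hone.1, hP', (hconj P).1] at h
    simp only [d, charDegree_conjIrr] at h ⊢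
    push_cast at h
    linear_combination h
  have h6 : ∃ e ∈ charDegrees G, 6 ∣ e := by
    have hcase := six_dvd_cases _ (hone' A hAT).2 _ (hone' B hBT).2 _ hPval.2 (by
      rcases hPval.1 with h | h <;> rw [h] at heq
      · left; linarith
      · right; linarith)
    rcases hcase with h | h | h
    · exact ⟨_, ⟨A, rfl⟩, h⟩
    · exact ⟨_, ⟨B, rfl⟩, h⟩
    · exact ⟨_, ⟨P, rfl⟩, h⟩
  have hseven : ∀ χ ∈ S5ᶜ, 7 ∣ d χ := by
    intro χ hχ
    obtain ⟨hx, hy⟩ := hmem5 χ (Finset.mem_compl.mp hχ)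
    have hc := hcong χ
    rw [hx, hy] at hc
    omega
  have hcount : 9 ≤ S5ᶜ.card := by
    have h5 : S5.card ≤ 5 := by
      refine le_trans (Finset.card_insert_le _ _) ?_
      refine Nat.succ_le_succ (le_trans (Finset.card_insert_le _ _) ?_)
      refine Nat.succ_le_succ (le_trans (Finset.card_insert_le _ _) ?_)
      exact Nat.succ_le_succ Finset.card_le_two
    have := Finset.card_compl S5
    have hk' : 14 ≤ Fintype.card (IrrCharacter G) := by
      rw [← Nat.card_eq_fintype_card, card_irr_eq_card_conjClasses]; exact hk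
    omega
  have hnot : one ∉ S5ᶜ := by simp [S5]
  refine ⟨h6, ?_, ?_⟩
  · by_contra hno
    push Not at hno
    have hodd : ∀ χ ∈ insert one S5ᶜ, ¬ 2 ∣ d χ := by
      intro χ hχ h2
      rcases Finset.mem_insert.mp hχ with rfl | hχ
      · omega
      · exact hno _ ⟨χ, rfl⟩ (Nat.Coprime.mul_dvd_of_dvd_of_dvd (by norm_num) h2 (hseven χ hχ))
    have hle := card_le_of_normSq g (insert one S5ᶜ)
      (fun χ => Complex.normSq ((χ : G → ℂ) w) + Complex.normSq ((χ : G → ℂ) (w ^ 3))) 2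
      (fun χ hχ => two_le_normSq_eight (isCharacter_of_isIrr χ.2) hw (hodd χ hχ))
      (fun χ => add_nonneg (Complex.normSq_nonneg _) (Complex.normSq_nonneg _)) _ rfl
    rw [Finset.sum_add_distrib, sum_normSq_real, sum_normSq_real, Finset.card_insert_of_notMem hnot] at hle
    have a1 : (Nat.card (Subgroup.centralizer ({w} : Set G)) : ℝ) ≤ 8 := by exact_mod_cast hC8
    have a2 : (Nat.card (Subgroup.centralizer ({w ^ 3} : Set G)) : ℝ) ≤ 8 := by exact_mod_cast hC8'
    have a3 : (9 : ℝ) ≤ S5ᶜ.card := by exact_mod_cast hcount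
    push_cast at hle
    linarith
  · by_contra hno
    push Not at hno
    have hodd : ∀ χ ∈ insert one S5ᶜ, ¬ 3 ∣ d χ := by
      intro χ hχ h2
      rcases Finset.mem_insert.mp hχ with rfl | hχ
      · omega
      · exact hno _ ⟨χ, rfl⟩ (Nat.Coprime.mul_dvd_of_dvd_of_dvd (by norm_num) h2 (hseven χ hχ))
    have hle := card_le_of_normSq g (insert one S5ᶜ) (fun χ => Complex.normSq ((χ : G → ℂ) u)) 1
      (fun χ hχ => one_le_normSq_three (isCharacter_of_isIrr χ.2) hu (hodd χ hχ))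
      (fun χ => Complex.normSq_nonneg _) _ rfl
    rw [sum_normSq_real, Finset.card_insert_of_notMem hnot] at hle
    have a1 : (Nat.card (Subgroup.centralizer ({u} : Set G)) : ℝ) ≤ 9 := by exact_mod_cast hC3
    have a3 : (9 : ℝ) ≤ S5ᶜ.card := by exact_mod_cast hcount
    push_cast at hle
    linarith

end Cfsg.Agent.Lib.UThreeDeg
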