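import Cfsg.Agent.Lib.Char.Orthogonality
import Cfsg.Agent.Lib.Char.Integral
import Cfsg.Agent.Lib.Char.Degree
import Mathlib.RingTheory.RootsOfUnity.Complex

/-!
# Integral shape of character values at elements of order 3, 7 and 8
-/

set_option autoImplicit false

open scoped ComplexConjugate

namespace Cfsg.Agent.Lib.UThreeDeg

open Cfsg.Agent.Lib.Char

universe u

/-- a nonreal root of `r ^ 2 + r + c` -/
structure QuadRoot (c : ℤ) (r : ℂ) : Prop where
  eqn : r ^ 2 + r + (c : ℂ) = 0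
  im_ne : r.im ≠ 0

theorem QuadRoot.of_eqn {c : ℤ} {r : ℂ} (hc : 1 ≤ c) (h : r ^ 2 + r + (c : ℂ) = 0) :
    QuadRoot c r := by
  refine ⟨h, fun him => ?_⟩
  have hre := congrArg Complex.re h
  simp [sq, Complex.mul_re, him] at hre
  have : (1 : ℝ) ≤ c := by exact_mod_cast hc
  nlinarith [sq_nonneg (2 * r.re + 1)]

theorem QuadRoot.conj_eq {c : ℤ} {r : ℂ} (h : QuadRoot c r) : conj r = -1 - r := by
  have h2 := congrArg (starRingEnd ℂ) h.eqn
  simp only [map_add, map_pow, map_zero, Complex.conj_ofReal] at h2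
  rw [map_intCast] at h2
  have h3 : (r - conj r) * (r + conj r + 1) = 0 := by linear_combination h.eqn - h2
  rcases mul_eq_zero.mp h3 with h4 | h4
  · exfalso
    apply h.im_ne
    have := congrArg Complex.im h4
    simp at this
    linarith
  · linear_combination h4

theorem QuadRoot.uniq {c : ℤ} {r : ℂ} (h : QuadRoot c r) {x y : ℤ} (he : (x : ℂ) + y * r = 0) :
    x = 0 ∧ y = 0 := by
  have him := congrArg Complex.im he
  simp at him
  have hy : y = 0 := by
    rcases him with him | him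
    · exact_mod_cast him
    · exact absurd him h.im_ne
  subst hy
  simp at he
  exact ⟨by exact_mod_cast he, rfl⟩

theorem QuadRoot.mul_conj {c : ℤ} {r : ℂ} (h : QuadRoot c r) (x y : ℤ) :
    ((x : ℂ) + y * r) * conj ((x : ℂ) + y * r) = ((x ^ 2 - x * y + c * y ^ 2 : ℤ) : ℂ) := by
  rw [map_add, map_mul, map_intCast, map_intCast, h.conj_eq]
  push_cast
  linear_combination (-(y : ℂ) ^ 2) * h.eqn

theorem conj_combo {c : ℤ} {r : ℂ} (h : QuadRoot c r) (x y : ℤ) :
    conj ((x : ℂ) + y * r) = ((x - y : ℤ) : ℂ) + ((-y : ℤ) : ℂ) * r := by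
  rw [map_add, map_mul, map_intCast, map_intCast, h.conj_eq]
  push_cast
  ring

noncomputable def zeta (m : ℕ) : ℂ := Complex.exp (2 * Real.pi * Complex.I / m)

theorem zeta_prim (m : ℕ) (hm : m ≠ 0) : IsPrimitiveRoot (zeta m) m := Complex.isPrimitiveRoot_exp m hm

theorem exists_pow_zeta {m : ℕ} (hm : m ≠ 0) {μ : ℂ} (h : μ ^ m = 1) : ∃ k < m, μ = zeta m ^ k := by
  haveI : NeZero m := ⟨hm⟩
  obtain ⟨k, hk, e⟩ := (zeta_prim m hm).eq_pow_of_pow_eq_one h
  exact ⟨k, hk, e.symm⟩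

/-- the period of the seventh roots of unity -/
noncomputable def eta : ℂ := zeta 7 + zeta 7 ^ 2 + zeta 7 ^ 4

theorem zeta_seven_sum : zeta 7 ^ 6 + zeta 7 ^ 5 + zeta 7 ^ 4 + zeta 7 ^ 3 + zeta 7 ^ 2 + zeta 7 + 1 = 0 := by
  have h := (zeta_prim 7 (by norm_num)).geom_sum_eq_zero (by norm_num)
  simp [Finset.sum_range_succ] at h
  linear_combination h

theorem eta_root : QuadRoot 2 eta := by
  refine QuadRoot.of_eqn (by norm_num) ?_
  have h7 := (zeta_prim 7 (by norm_num)).pow_eq_one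
  have hs := zeta_seven_sum
  simp only [eta]
  push_cast
  linear_combination (zeta 7) * h7 + 2 * hs

theorem omega_root : QuadRoot 1 (zeta 3) := by
  refine QuadRoot.of_eqn (by norm_num) ?_
  have h := (zeta_prim 3 (by norm_num)).geom_sum_eq_zero (by norm_num)
  simp [Finset.sum_range_succ] at h
  push_cast
  linear_combination h

theorem sum_induct {ι : Type*} (s : Finset ι) (f : ι → ℂ) (P : ℕ → ℂ → Prop) (h0 : P 0 0)
    (hadd : ∀ n a b, P n a → P 1 b → P (n + 1) (a + b)) (hi : ∀ i, P 1 (f i)) : P s.card (∑ i ∈ s, f i) := by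
  classical
  induction s using Finset.induction_on with
  | empty => simpa using h0
  | @insert a s ha ih =>
    rw [Finset.card_insert_of_notMem ha, Finset.sum_insert ha, add_comm (f a)]
    exact hadd _ _ _ ih (hi a)

variable {G : Type u} [Group G] [Finite G]

/-- the eigenvalue sums of an element killed by a power -/
theorem exists_roots {χ : G → ℂ} (h : IsCharacter G χ) {g : G} {m : ℕ} (hg : g ^ m = 1) :
    ∃ (n : ℕ) (μ : Fin n → ℂ), charDegree χ = n ∧ (∀ i, μ i ^ m = 1) ∧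
      ∀ k : ℕ, χ (g ^ k) = ∑ i, μ i ^ k := by
  obtain ⟨n, ρ, rfl⟩ := h
  obtain ⟨b, μ, h1, -, h3⟩ := exists_eigenbasis ρ g
  refine ⟨_, μ, ?_, fun i => ?_, h3⟩
  · have h0 := h3 0
    simp only [pow_zero, Finset.sum_const, Finset.card_univ, Fintype.card_fin, nsmul_eq_mul, mul_one] at h0
    exact charDegree_eq_of_apply_one h0
  · obtain ⟨e, he⟩ := orderOf_dvd_of_pow_eq_one hg
    rw [he, pow_mul, h1, one_pow]

theorem value_seven {χ : G → ℂ} (h : IsCharacter G χ) {g : G} (hg : g ^ 7 = 1)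
    (h2 : χ (g ^ 2) = χ g) (h4 : χ (g ^ 4) = χ g) :
    ∃ x y : ℤ, χ g = x + y * eta ∧ (7 : ℤ) ∣ x + 3 * y - (charDegree χ : ℤ) := by
  obtain ⟨n, μ, hn, hμ, hk⟩ := exists_roots h hg
  have key : ∃ X Y : ℤ, (∑ i, (μ i + μ i ^ 2 + μ i ^ 4)) = X + Y * eta ∧
      (7 : ℤ) ∣ X + 3 * Y - 3 * ((Finset.univ : Finset (Fin n)).card : ℤ) := by
    refine sum_induct Finset.univ _ (fun k a => ∃ X Y : ℤ, a = X + Y * eta ∧ (7 : ℤ) ∣ X + 3 * Y - 3 * (k : ℤ))
      ⟨0, 0, by simp, by simp⟩ ?_ ?_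
    · rintro k a b ⟨X, Y, rfl, hd⟩ ⟨X', Y', rfl, hd'⟩
      exact ⟨X + X', Y + Y', by push_cast; ring, by push_cast at hd' ⊢; omega⟩
    · intro i
      obtain ⟨k, hk7, e⟩ := exists_pow_zeta (by norm_num) (hμ i)
      have h7 := (zeta_prim 7 (by norm_num)).pow_eq_one
      have hs := zeta_seven_sum
      rw [e]
      interval_cases k
      · exact ⟨3, 0, by norm_num, by norm_num⟩
      · exact ⟨0, 1, by simp [eta], by norm_num⟩
      · exact ⟨0, 1, by simp only [eta]; push_cast; linear_combination (zeta 7) * h7, by norm_num⟩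
      · exact ⟨-1, -1, by simp only [eta]; push_cast; linear_combination (zeta 7 ^ 5) * h7 + hs, by norm_num⟩
      · exact ⟨0, 1, by simp only [eta]; push_cast; linear_combination (zeta 7 ^ 9 + zeta 7 ^ 2 + zeta 7) * h7, by norm_num⟩
      · exact ⟨-1, -1, by simp only [eta]; push_cast; linear_combination (zeta 7 ^ 13 + zeta 7 ^ 6 + zeta 7 ^ 3) * h7 + hs, by norm_num⟩
      · exact ⟨-1, -1, by simp only [eta]; push_cast; linear_combination (zeta 7 ^ 17 + zeta 7 ^ 10 + zeta 7 ^ 3 + zeta 7 ^ 5) * h7 + hs, by norm_num⟩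
  obtain ⟨X, Y, hsum, hd⟩ := key
  rw [Finset.card_univ, Fintype.card_fin, ← hn] at hd
  have h3 : 3 * χ g = X + Y * eta := by
    rw [← hsum, Finset.sum_add_distrib, Finset.sum_add_distrib, ← hk, ← hk]
    have h1 := hk 1
    rw [pow_one] at h1
    simp only [pow_one] at h1
    rw [← h1, h2, h4]
    ring
  have hint : IsIntegral ℤ (χ g * χ g⁻¹) := (char_isIntegral h g).mul (char_isIntegral h g⁻¹)
  have hq : χ g * χ g⁻¹ = (((X ^ 2 - X * Y + 2 * Y ^ 2 : ℤ) : ℚ) / 9 : ℚ) := by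
    rw [char_inv h g]
    have := eta_root.mul_conj X Y
    rw [← h3, map_mul] at this
    push_cast at this ⊢
    simp only [map_ofNat] at this
    linear_combination this / 9
  rw [hq] at hint
  obtain ⟨z, hz⟩ := exists_int_of_isIntegral hint
  have hz' : X ^ 2 - X * Y + 2 * Y ^ 2 = 9 * z := by
    have : ((X ^ 2 - X * Y + 2 * Y ^ 2 : ℤ) : ℚ) = ((9 * z : ℤ) : ℚ) := by
      rw [Int.cast_mul]
      have h9 : ((9 : ℤ) : ℚ) = 9 := by norm_num
      rw [h9, ← hz]
      ring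
    exact_mod_cast this
  have hm : ((X : ZMod 3) = 0 ∧ (Y : ZMod 3) = 0) := by
    have := congrArg (fun t : ℤ => (t : ZMod 3)) hz'
    push_cast at this
    rw [show (9 : ZMod 3) = 0 from by decide, zero_mul] at this
    exact (by decide : ∀ a b : ZMod 3, a ^ 2 - a * b + 2 * b ^ 2 = 0 → a = 0 ∧ b = 0) _ _ this
  obtain ⟨⟨x, rfl⟩, ⟨y, rfl⟩⟩ : (3 : ℤ) ∣ X ∧ (3 : ℤ) ∣ Y :=
    ⟨(ZMod.intCast_zmod_eq_zero_iff_dvd X 3).mp hm.1, (ZMod.intCast_zmod_eq_zero_iff_dvd Y 3).mp hm.2⟩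
  refine ⟨x, y, ?_, by omega⟩
  push_cast at h3
  linear_combination h3 / 3

theorem value_three {χ : G → ℂ} (h : IsCharacter G χ) {g : G} (hg : g ^ 3 = 1) :
    ∃ x y : ℤ, χ g = x + y * zeta 3 ∧ (3 : ℤ) ∣ x + y - (charDegree χ : ℤ) := by
  obtain ⟨n, μ, hn, hμ, hk⟩ := exists_roots h hg
  have key : ∃ X Y : ℤ, (∑ i, μ i) = X + Y * zeta 3 ∧
      (3 : ℤ) ∣ X + Y - ((Finset.univ : Finset (Fin n)).card : ℤ) := by
    refine sum_induct Finset.univ _ (fun k a => ∃ X Y : ℤ, a = X + Y * zeta 3 ∧ (3 : ℤ) ∣ X + Y - (k : ℤ))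
      ⟨0, 0, by simp, by simp⟩ ?_ ?_
    · rintro k a b ⟨X, Y, rfl, hd⟩ ⟨X', Y', rfl, hd'⟩
      exact ⟨X + X', Y + Y', by push_cast; ring, by push_cast at hd' ⊢; omega⟩
    · intro i
      obtain ⟨k, hk3, e⟩ := exists_pow_zeta (by norm_num) (hμ i)
      have hr := omega_root.eqn
      push_cast at hr
      rw [e]
      interval_cases k
      · exact ⟨1, 0, by simp, by norm_num⟩
      · exact ⟨0, 1, by simp, by norm_num⟩
      · exact ⟨-1, -1, by push_cast; linear_combination hr, by norm_num⟩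
  obtain ⟨X, Y, hsum, hd⟩ := key
  rw [Finset.card_univ, Fintype.card_fin, ← hn] at hd
  refine ⟨X, Y, ?_, hd⟩
  have h1 := hk 1
  simp only [pow_one] at h1
  rw [h1, hsum]

theorem one_le_normSq_three {χ : G → ℂ} (h : IsCharacter G χ) {g : G} (hg : g ^ 3 = 1)
    (hd : ¬ 3 ∣ charDegree χ) : 1 ≤ Complex.normSq (χ g) := by
  obtain ⟨x, y, hxy, hdvd⟩ := value_three h hg
  have hN : (Complex.normSq (χ g) : ℂ) = ((x ^ 2 - x * y + 1 * y ^ 2 : ℤ) : ℂ) := by
    rw [← Complex.mul_conj, hxy, omega_root.mul_conj]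
  have hN' : Complex.normSq (χ g) = ((x ^ 2 - x * y + 1 * y ^ 2 : ℤ) : ℝ) := by exact_mod_cast hN
  rw [hN']
  have hne : x ^ 2 - x * y + 1 * y ^ 2 ≠ 0 := by
    intro h0
    have hy : y = 0 := by nlinarith [sq_nonneg (2 * x - y), sq_nonneg y]
    subst hy
    have hx : x = 0 := by simpa using h0
    subst hx
    apply hd
    simp at hdvd
    exact_mod_cast hdvd
  have h1 : 1 ≤ x ^ 2 - x * y + 1 * y ^ 2 := by
    have : 0 ≤ x ^ 2 - x * y + 1 * y ^ 2 := by nlinarith [sq_nonneg (2 * x - y), sq_nonneg y]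
    omega
  exact_mod_cast h1

theorem two_le_normSq_eight {χ : G → ℂ} (h : IsCharacter G χ) {g : G} (hg : g ^ 8 = 1)
    (hd : ¬ 2 ∣ charDegree χ) : 2 ≤ Complex.normSq (χ g) + Complex.normSq (χ (g ^ 3)) := by
  obtain ⟨n, μ, hn, hμ, hk⟩ := exists_roots h hg
  have hz8 := zeta_prim 8 (by norm_num)
  have h4 : zeta 8 ^ 4 = -1 := (hz8.pow (by norm_num) (show 8 = 4 * 2 by norm_num)).eq_neg_one_of_two_right
  have hc : conj (zeta 8) = -zeta 8 ^ 3 := by
    have hn1 : ‖zeta 8‖ = 1 := Complex.norm_eq_one_of_pow_eq_one hz8.pow_eq_one (by norm_num)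
    rw [← Complex.inv_eq_conj hn1]
    refine inv_eq_of_mul_eq_one_right ?_
    linear_combination (-1 : ℂ) * h4
  let P : ℕ → ℂ → ℂ → Prop := fun k a a' => ∃ A B C D : ℤ,
    a = A + B * zeta 8 + C * zeta 8 ^ 2 + D * zeta 8 ^ 3 ∧
    a' = A + B * zeta 8 ^ 3 - C * zeta 8 ^ 2 + D * zeta 8 ∧ (2 : ℤ) ∣ A + B + C + D - (k : ℤ)
  have key : ∀ s : Finset (Fin n), P s.card (∑ i ∈ s, μ i) (∑ i ∈ s, μ i ^ 3) := by
    intro s
    induction s using Finset.induction_on with
    | empty => exact ⟨0, 0, 0, 0, by simp, by simp, by simp⟩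
    | @insert a s ha ih =>
      obtain ⟨A, B, C, D, e1, e2, e3⟩ := ih
      rw [Finset.card_insert_of_notMem ha, Finset.sum_insert ha, Finset.sum_insert ha]
      obtain ⟨k, hk8, e⟩ := exists_pow_zeta (by norm_num) (hμ a)
      rw [e, e1, e2]
      interval_cases k
      · exact ⟨A + 1, B, C, D, by push_cast; ring, by push_cast; ring, by push_cast; omega⟩
      · exact ⟨A, B + 1, C, D, by push_cast; ring, by push_cast; ring, by push_cast; omega⟩
      · exact ⟨A, B, C + 1, D, by push_cast; ring, by push_cast; linear_combination (zeta 8 ^ 2) * h4, by push_cast; omega⟩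
      · exact ⟨A, B, C, D + 1, by push_cast; ring, by push_cast; linear_combination (zeta 8 ^ 5 - zeta 8) * h4, by push_cast; omega⟩
      · exact ⟨A - 1, B, C, D, by push_cast; linear_combination h4, by push_cast; linear_combination (zeta 8 ^ 8 - zeta 8 ^ 4 + 1) * h4, by push_cast; omega⟩
      · exact ⟨A, B - 1, C, D, by push_cast; linear_combination (zeta 8) * h4, by push_cast; linear_combination (zeta 8 ^ 11 - zeta 8 ^ 7 + zeta 8 ^ 3) * h4, by push_cast; omega⟩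
      · exact ⟨A, B, C - 1, D, by push_cast; linear_combination (zeta 8 ^ 2) * h4, by push_cast; linear_combination (zeta 8 ^ 14 - zeta 8 ^ 10 + zeta 8 ^ 6 - zeta 8 ^ 2) * h4, by push_cast; omega⟩
      · exact ⟨A, B, C, D - 1, by push_cast; linear_combination (zeta 8 ^ 3) * h4, by push_cast; linear_combination (zeta 8 ^ 17 - zeta 8 ^ 13 + zeta 8 ^ 9 - zeta 8 ^ 5 + zeta 8) * h4, by push_cast; omega⟩
  obtain ⟨A, B, C, D, e1, e2, e3⟩ := key Finset.univ
  rw [Finset.card_univ, Fintype.card_fin, ← hn] at e3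
  have ha : χ g = ∑ i, μ i := by simpa using hk 1
  have hsum : ((Complex.normSq (χ g) + Complex.normSq (χ (g ^ 3)) : ℝ) : ℂ) =
      ((2 * (A ^ 2 + B ^ 2 + C ^ 2 + D ^ 2) : ℤ) : ℂ) := by
    push_cast
    rw [← Complex.mul_conj, ← Complex.mul_conj, ha, hk 3, e1, e2]
    simp only [map_add, map_sub, map_mul, map_pow, map_intCast, hc]
    ring_nf
    have e4 := h4
    have e5 : zeta 8 ^ 5 = -zeta 8 := by linear_combination (zeta 8) * h4
    have e6 : zeta 8 ^ 6 = -zeta 8 ^ 2 := by linear_combination (zeta 8 ^ 2) * h4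
    have e7 : zeta 8 ^ 7 = -zeta 8 ^ 3 := by linear_combination (zeta 8 ^ 3) * h4
    have e8 : zeta 8 ^ 8 = 1 := hz8.pow_eq_one
    have e9 : zeta 8 ^ 9 = zeta 8 := by linear_combination (zeta 8) * e8
    have e10 : zeta 8 ^ 10 = zeta 8 ^ 2 := by linear_combination (zeta 8 ^ 2) * e8
    have e11 : zeta 8 ^ 11 = zeta 8 ^ 3 := by linear_combination (zeta 8 ^ 3) * e8
    have e12 : zeta 8 ^ 12 = -1 := by linear_combination (zeta 8 ^ 4) * e8 + h4
    simp only [e4, e5, e6, e7, e8, e9, e10, e11, e12]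
    ring
  have hreal : Complex.normSq (χ g) + Complex.normSq (χ (g ^ 3)) = ((2 * (A ^ 2 + B ^ 2 + C ^ 2 + D ^ 2) : ℤ) : ℝ) := by
    exact_mod_cast hsum
  rw [hreal]
  have hpos : 1 ≤ A ^ 2 + B ^ 2 + C ^ 2 + D ^ 2 := by
    by_contra hlt
    have hA := sq_nonneg A; have hB := sq_nonneg B; have hC := sq_nonneg C; have hD := sq_nonneg D
    have hA0 : A = 0 := sq_eq_zero_iff.mp (by omega)
    have hB0 : B = 0 := sq_eq_zero_iff.mp (by omega)
    have hC0 : C = 0 := sq_eq_zero_iff.mp (by omega)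
    have hD0 : D = 0 := sq_eq_zero_iff.mp (by omega)
    subst hA0; subst hB0; subst hC0; subst hD0
    simp at e3
    exact hd (by exact_mod_cast e3)
  have : (2 : ℤ) ≤ 2 * (A ^ 2 + B ^ 2 + C ^ 2 + D ^ 2) := by omega
  exact_mod_cast this

end Cfsg.Agent.Lib.UThreeDeg
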