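import Cfsg.Agent.Lib.Char.Clifford
import Cfsg.Agent.Lib.Char.Degree
import Cfsg.Prelude.Def_DegreeGraph
import Mathlib.GroupTheory.SemidirectProduct
import Mathlib.GroupTheory.Solvable
import Mathlib.GroupTheory.SpecificGroups.Dihedral
import Mathlib.NumberTheory.LegendreSymbol.AddCharacter
import Mathlib.Analysis.Fourier.ZMod

/-!
# A solvable group of order 6048 with an irreducible character of degree 42
-/

set_option autoImplicit false

namespace Cfsg.Agent.Lib.UThreeDeg

open Cfsg.Agent.Lib.Char

abbrev VV : Type := (ZMod 2 × ZMod 2 × ZMod 2) × (ZMod 3 × ZMod 3) × ZMod 2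
abbrev BB : Type := Multiplicative (ZMod 7) × DihedralGroup 3

def singer (v : ZMod 2 × ZMod 2 × ZMod 2) : ZMod 2 × ZMod 2 × ZMod 2 := (v.2.2, v.1 + v.2.2, v.2.1)

def dact : DihedralGroup 3 → ZMod 3 × ZMod 3 → ZMod 3 × ZMod 3
  | .r i, p => (p.1 + i * p.2, p.2)
  | .sr i, p => (-(p.1 + i * p.2), p.2)

def act (b : BB) (x : VV) : VV :=
  (singer^[(Multiplicative.toAdd b.1).val] x.1, dact b.2 x.2.1, x.2.2)

theorem singer_add : ∀ v w, singer (v + w) = singer v + singer w := by decide +kernel
theorem singer_iterate_mul : ∀ (i j : ZMod 7) (v : ZMod 2 × ZMod 2 × ZMod 2),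
    singer^[(i + j).val] v = singer^[i.val] (singer^[j.val] v) := by decide +kernel
theorem dact_mul : ∀ (a b : DihedralGroup 3) (p : ZMod 3 × ZMod 3), dact (a * b) p = dact a (dact b p) := by
  decide +kernel
theorem dact_one : ∀ p, dact 1 p = p := by decide +kernel
theorem dact_add : ∀ (a : DihedralGroup 3) (p q : ZMod 3 × ZMod 3), dact a (p + q) = dact a p + dact a q := by
  decide +kernel

theorem act_one (x : VV) : act 1 x = x := by
  simp only [act, Prod.fst_one, Prod.snd_one, dact_one, toAdd_one, ZMod.val_zero, Function.iterate_zero, id]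

theorem act_mul (a b : BB) (x : VV) : act (a * b) x = act a (act b x) := by
  simp only [act, Prod.fst_mul, Prod.snd_mul, toAdd_mul, singer_iterate_mul, dact_mul]

theorem act_add (b : BB) (x y : VV) : act b (x + y) = act b x + act b y := by
  have h : ∀ (n : ℕ) v w, singer^[n] (v + w) = singer^[n] v + singer^[n] w := by
    intro n
    induction n with
    | zero => simp
    | succ n ih => intro v w; simp only [Function.iterate_succ', Function.comp_apply, ih, singer_add]
  simp only [act, Prod.fst_add, Prod.snd_add, h, dact_add]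
  rfl

def actAut (b : BB) : MulAut (Multiplicative VV) :=
  AddEquiv.toMultiplicative
    { toFun := act b
      invFun := act b⁻¹
      left_inv := fun x => by rw [← act_mul, inv_mul_cancel, act_one]
      right_inv := fun x => by rw [← act_mul, mul_inv_cancel, act_one]
      map_add' := act_add b }

def actHom : BB →* MulAut (Multiplicative VV) where
  toFun := actAut
  map_one' := MulEquiv.ext fun x => act_one x.toAdd
  map_mul' a b := MulEquiv.ext fun x => act_mul a b x.toAdd

abbrev HH : Type := Multiplicative VV ⋊[actHom] BB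

noncomputable instance : Fintype HH := Fintype.ofEquiv _ SemidirectProduct.equivProd.symm

theorem card_HH : Nat.card HH = 6048 := by
  rw [SemidirectProduct.card, Nat.card_prod, DihedralGroup.nat_card,
    Nat.card_congr (Multiplicative.toAdd : Multiplicative VV ≃ VV),
    Nat.card_congr (Multiplicative.toAdd : Multiplicative (ZMod 7) ≃ ZMod 7)]
  simp

theorem isSolvable_dihedral_three : Group.IsSolvable (DihedralGroup 3) := by
  let f : DihedralGroup 3 →* Multiplicative (ZMod 2) :=
    MonoidHom.mk' (fun x => match x with | .r _ => .ofAdd 0 | .sr _ => .ofAdd 1)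
      (by decide +kernel)
  let j : Multiplicative (ZMod 3) →* DihedralGroup 3 :=
    MonoidHom.mk' (fun i => .r i.toAdd) (by decide +kernel)
  refine solvable_of_ker_le_range j f ?_
  intro x hx
  cases x with
  | r i => exact ⟨.ofAdd i, rfl⟩
  | sr i =>
    rw [MonoidHom.mem_ker] at hx
    exact absurd hx (show Multiplicative.ofAdd (1 : ZMod 2) ≠ 1 by decide)

theorem isSolvable_HH : Group.IsSolvable HH := by
  haveI := isSolvable_dihedral_three
  haveI : Group.IsSolvable BB := inferInstance
  exact solvable_of_ker_le_range (SemidirectProduct.inl : Multiplicative VV →* HH)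
    SemidirectProduct.rightHom (by rw [SemidirectProduct.range_inl_eq_ker_rightHom])

def lin (x : VV) : ZMod 6 := 3 * (x.1.1.val : ZMod 6) + 2 * (x.2.1.1.val : ZMod 6)

theorem lin_add : ∀ x y : VV, lin (x + y) = lin x + lin y := by decide +kernel
theorem lin_free : ∀ b : BB, (∀ x : VV, lin (act b x) = lin x) → b = 1 := by decide +kernel

theorem exists_forty_two : ∃ d ∈ charDegrees HH, d = 42 := by
  classical
  let N : Subgroup HH := (SemidirectProduct.inl : Multiplicative VV →* HH).range
  haveI hNn : N.Normal := by
    simp only [N, SemidirectProduct.range_inl_eq_ker_rightHom]; infer_instance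
  let e : Multiplicative VV ≃* N := MonoidHom.ofInjective SemidirectProduct.inl_injective
  let L : Multiplicative VV →* Multiplicative (ZMod 6) := AddMonoidHom.toMultiplicative (AddMonoidHom.mk' lin lin_add)
  let l : N →* ℂˣ := (((ZMod.stdAddChar (N := 6)).toMonoidHom.comp L).comp e.symm.toMonoidHom).toHomUnits
  let θ : N → ℂ := fun n => (l n : ℂ)
  have hθ : IsIrrCharacter N θ := isIrrCharacter_linear l
  have hval : ∀ x : Multiplicative VV, θ (e x) = ZMod.stdAddChar (lin x.toAdd) := fun x => by
    show (ZMod.stdAddChar (N := 6)).toMonoidHom (L (e.symm (e x))) = _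
    rw [MulEquiv.symm_apply_apply]
    rfl
  have hin : inertia N θ = N := by
    refine le_antisymm ?_ (le_inertia N (isClassFunction_of_isIrr hθ))
    intro g hg
    rw [mem_inertia] at hg
    have hb : g.right = 1 := by
      apply lin_free
      intro x
      apply ZMod.injective_stdAddChar
      have h := congrFun hg (e (.ofAdd x))
      rw [conjChar_apply, hval] at h
      have he : (⟨g * (e (.ofAdd x) : HH) * g⁻¹, hNn.conj_mem _ (e (.ofAdd x)).2 g⟩ : N) =
          e (.ofAdd (act g.right x)) := by
        apply Subtype.ext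
        show g * SemidirectProduct.inl (.ofAdd x) * g⁻¹ = SemidirectProduct.inl (.ofAdd (act g.right x))
        refine SemidirectProduct.ext ?_ ?_
        · simp [SemidirectProduct.mul_left, SemidirectProduct.mul_right]
          rfl
        · simp
      rw [he, hval] at h
      exact h
    show g ∈ (SemidirectProduct.inl : Multiplicative VV →* HH).range
    rw [SemidirectProduct.range_inl_eq_ker_rightHom, MonoidHom.mem_ker]
    exact hb
  have hirr : IsIrrCharacter HH (indFun N θ) := by
    refine isIrrCharacter_of_norm_one (isCharacter_indFun N (isCharacter_of_isIrr hθ)) ?_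
    rw [classInner_indFun_self N hθ, hin]
    exact inv_mul_cancel₀ (Nat.cast_ne_zero.mpr Nat.card_pos.ne')
  refine ⟨_, ⟨⟨_, hirr⟩, rfl⟩, ?_⟩
  rw [charDegree_indFun N (isCharacter_of_isIrr hθ), charDegree_eq_of_apply_one (n := 1) (by simp [θ]), mul_one]
  have hc : Nat.card N = 144 := by
    rw [← Nat.card_congr e.toEquiv, Nat.card_congr (Multiplicative.toAdd : Multiplicative VV ≃ VV)]
    simp
  have := N.index_mul_card
  rw [hc, card_HH] at this
  omega

end Cfsg.Agent.Lib.UThreeDeg
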